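import Mathlib
import Cfsg.Agent.H173.NilOne
set_option linter.all false

set_option autoImplicit false

/-! The regular nilpotent (shift) matrix and its centralizer. -/

namespace Cfsg.Agent.H173.RegUni

open Matrix Module

variable {F : Type*} [Field F]

/-- The lower shift matrix. -/
def shift (n : ℕ) (F : Type*) [Field F] : Matrix (Fin n) (Fin n) F :=
  Matrix.of fun i j => if (i : ℕ) = j + 1 then 1 else 0

theorem shift_apply (n : ℕ) (i j : Fin n) :
    shift n F i j = if (i : ℕ) = j + 1 then 1 else 0 := rfl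

theorem shift_mulVec_succ {n : ℕ} (x : Fin n → F) (i : Fin n) (j : Fin n) (h : (i : ℕ) = j + 1) :
    (shift n F *ᵥ x) i = x j := by
  show ∑ l, shift n F i l * x l = x j
  rw [Finset.sum_eq_single j]
  · rw [shift_apply, if_pos h, one_mul]
  · intro l _ hl
    rw [shift_apply, if_neg, zero_mul]
    intro h'
    apply hl
    apply Fin.ext
    omega
  · intro h; exact absurd (Finset.mem_univ _) h

theorem shift_mulVec_zero {n : ℕ} (x : Fin n → F) (i : Fin n) (h : (i : ℕ) = 0) :
    (shift n F *ᵥ x) i = 0 := by
  show ∑ l, shift n F i l * x l = 0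
  apply Finset.sum_eq_zero
  intro l _
  rw [shift_apply, if_neg (by omega), zero_mul]

theorem shift_pow_apply (n k : ℕ) (i j : Fin n) :
    (shift n F ^ k) i j = if (i : ℕ) = j + k then 1 else 0 := by
  induction k generalizing i j with
  | zero =>
    rw [pow_zero, Matrix.one_apply]
    by_cases h : i = j
    · simp [h]
    · rw [if_neg h, if_neg]
      intro h'
      exact h (Fin.ext (by omega))
  | succ k ih =>
    rw [pow_succ', Matrix.mul_apply]
    by_cases hi : (i : ℕ) = 0
    · rw [if_neg (by omega)]
      apply Finset.sum_eq_zero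
      intro l _
      rw [shift_apply, if_neg (by omega), zero_mul]
    · have hlt : (i : ℕ) - 1 < n := by omega
      rw [Finset.sum_eq_single ⟨(i : ℕ) - 1, hlt⟩]
      · rw [shift_apply, ih]
        simp only
        rw [if_pos (by omega), one_mul]
        by_cases h : (i : ℕ) = j + (k + 1)
        · rw [if_pos h, if_pos (by omega)]
        · rw [if_neg h, if_neg (by omega)]
      · intro l _ hl
        rw [shift_apply, if_neg, zero_mul]
        intro h'
        apply hl
        apply Fin.ext
        simp only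
        omega
      · intro h; exact absurd (Finset.mem_univ _) h

theorem shift_pow_self (n : ℕ) : shift n F ^ n = 0 := by
  ext i j
  rw [shift_pow_apply, if_neg (by omega)]
  rfl

/-- The kernel of the shift has dimension one. -/
theorem finrank_ker_shift {n : ℕ} (hn : 1 ≤ n) :
    finrank F (LinearMap.ker (Matrix.toLin' (shift n F))) = 1 := by
  have hlt : n - 1 < n := by omega
  rw [finrank_eq_one_iff']
  refine ⟨⟨Pi.single ⟨n - 1, hlt⟩ 1, ?_⟩, ?_, ?_⟩
  · rw [LinearMap.mem_ker, Matrix.toLin'_apply]
    ext i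
    by_cases hi : (i : ℕ) = 0
    · rw [shift_mulVec_zero _ _ hi]; rfl
    · rw [shift_mulVec_succ _ i ⟨(i : ℕ) - 1, by omega⟩ (by simp only; omega)]
      rw [Pi.single_eq_of_ne]
      · rfl
      · intro h
        have := congrArg Fin.val h
        simp only at this
        omega
  · intro h
    have h1 := congrArg Subtype.val h
    have h2 := congrFun h1 ⟨n - 1, hlt⟩
    simp at h2
  · rintro ⟨x, hx⟩
    rw [LinearMap.mem_ker, Matrix.toLin'_apply] at hx
    refine ⟨x ⟨n - 1, hlt⟩, ?_⟩
    apply Subtype.ext
    show x ⟨n - 1, hlt⟩ • (Pi.single ⟨n - 1, hlt⟩ 1 : Fin n → F) = x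
    ext i
    by_cases hi : i = ⟨n - 1, hlt⟩
    · subst hi; simp
    · rw [Pi.smul_apply, Pi.single_eq_of_ne hi, smul_zero]
      have hi' : (i : ℕ) + 1 < n := by
        have : (i : ℕ) ≠ n - 1 := fun h => hi (Fin.ext h)
        omega
      have h1 := congrFun hx ⟨(i : ℕ) + 1, hi'⟩
      rw [shift_mulVec_succ x ⟨(i : ℕ) + 1, hi'⟩ i rfl] at h1
      rw [h1]; rfl

theorem rank_shift {n : ℕ} (hn : 1 ≤ n) : (shift n F).rank = n - 1 := by
  have h1 := LinearMap.finrank_range_add_finrank_ker (Matrix.toLin' (shift n F))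
  rw [finrank_ker_shift hn, Module.finrank_fin_fun] at h1
  have h2 : (shift n F).rank = finrank F (LinearMap.range (Matrix.toLin' (shift n F))) := rfl
  omega

/-- A matrix commuting with the shift is lower triangular with constant diagonal, so that its determinant
is an `n`-th power. -/
theorem det_of_commute_shift {n : ℕ} (hn : 1 ≤ n) (C : Matrix (Fin n) (Fin n) F)
    (hC : C * shift n F = shift n F * C) : C.det = (C ⟨0, hn⟩ ⟨0, hn⟩) ^ n := by
  -- entries
  have hL : ∀ (i j j' : Fin n), (j' : ℕ) = j + 1 → (C * shift n F) i j = C i j' := by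
    intro i j j' h
    rw [Matrix.mul_apply, Finset.sum_eq_single j']
    · rw [shift_apply, if_pos h, mul_one]
    · intro l _ hl
      rw [shift_apply, if_neg, mul_zero]
      intro h'
      exact hl (Fin.ext (by omega))
    · intro h; exact absurd (Finset.mem_univ _) h
  have hR : ∀ (i i' j : Fin n), (i : ℕ) = i' + 1 → (shift n F * C) i j = C i' j := by
    intro i i' j h
    rw [Matrix.mul_apply, Finset.sum_eq_single i']
    · rw [shift_apply, if_pos h, one_mul]
    · intro l _ hl
      rw [shift_apply, if_neg, zero_mul]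
      intro h'
      exact hl (Fin.ext (by omega))
    · intro h; exact absurd (Finset.mem_univ _) h
  have hR0 : ∀ (i j : Fin n), (i : ℕ) = 0 → (shift n F * C) i j = 0 := by
    intro i j h
    rw [Matrix.mul_apply]
    apply Finset.sum_eq_zero
    intro l _
    rw [shift_apply, if_neg (by omega), zero_mul]
  have htoep : ∀ (i j i' j' : Fin n), (i' : ℕ) = i + 1 → (j' : ℕ) = j + 1 → C i' j' = C i j := by
    intro i j i' j' hi hj
    rw [← hL i' j j' hj, hC, hR i' i j hi]
  have htop : ∀ (i j : Fin n), (i : ℕ) = 0 → (j : ℕ) ≠ 0 → C i j = 0 := by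
    intro i j hi hj
    rw [← hL i ⟨(j : ℕ) - 1, by omega⟩ j (by simp only; omega), hC, hR0 i _ hi]
  have hlow : ∀ (k : ℕ) (i j : Fin n), (i : ℕ) = k → i < j → C i j = 0 := by
    intro k
    induction k with
    | zero =>
      intro i j hi hij
      have : (i : ℕ) < j := hij
      exact htop i j hi (by omega)
    | succ k ih =>
      intro i j hi hij
      have hij' : (i : ℕ) < j := hij
      rw [htoep ⟨(i : ℕ) - 1, by omega⟩ ⟨(j : ℕ) - 1, by omega⟩ i j (by simp only; omega) (by simp only; omega)]
      apply ih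
      · simp only; omega
      · show (i : ℕ) - 1 < (j : ℕ) - 1
        omega
  have hdiag : ∀ (k : ℕ) (i : Fin n), (i : ℕ) = k → C i i = C ⟨0, hn⟩ ⟨0, hn⟩ := by
    intro k
    induction k with
    | zero =>
      intro i hi
      have : i = ⟨0, hn⟩ := Fin.ext hi
      rw [this]
    | succ k ih =>
      intro i hi
      rw [htoep ⟨(i : ℕ) - 1, by omega⟩ ⟨(i : ℕ) - 1, by omega⟩ i i (by simp only; omega) (by simp only; omega)]
      exact ih _ (by simp only; omega)
  rw [Matrix.det_of_isLowerTriangular C (fun i j hij => hlow i i j rfl hij)]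
  have h2 : ∀ i : Fin n, C i i = C ⟨0, hn⟩ ⟨0, hn⟩ := fun i => hdiag i.val i rfl
  simp only [h2, Finset.prod_const, Finset.card_univ, Fintype.card_fin]

/-- A nilpotent matrix of corank one is similar to the shift matrix. -/
theorem exists_shift_form {n : ℕ} (hn : 1 ≤ n) (A : Matrix (Fin n) (Fin n) F) (hA : A ^ n = 0)
    (hr : A.rank = n - 1) : ∃ P : Matrix (Fin n) (Fin n) F, P.det ≠ 0 ∧ A * P = P * shift n F := by
  let N : End F (Fin n → F) := Matrix.toLin' A
  have hNapp : ∀ (k : ℕ) x, (N ^ k) x = (A ^ k) *ᵥ x := by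
    intro k x
    show ((Matrix.toLin' A) ^ k) x = _
    rw [← Matrix.toLin'_pow, Matrix.toLin'_apply]
  have hNn : N ^ n = 0 := by
    apply LinearMap.ext; intro x
    rw [hNapp, hA, Matrix.zero_mulVec]; rfl
  have hker : finrank F (LinearMap.ker N) ≤ 1 := by
    have h1 := LinearMap.finrank_range_add_finrank_ker N
    have h2 : finrank F (LinearMap.range N) = n - 1 := by rw [← hr]; rfl
    rw [Module.finrank_fin_fun, h2] at h1
    omega
  obtain ⟨x, hx⟩ := NilOne.exists_pow_ne_zero N (Module.finrank_fin_fun F) hn hker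
  have hli := NilOne.linearIndependent_pow N hNn hx
  let P : Matrix (Fin n) (Fin n) F := Matrix.of fun i j => ((N ^ (j : ℕ)) x) i
  have hcol : ∀ j, P.col j = (N ^ (j : ℕ)) x := fun j => rfl
  refine ⟨P, ?_, ?_⟩
  · have h1 : IsUnit P := by
      rw [← Matrix.linearIndependent_cols_iff_isUnit]
      exact hli
    rw [Matrix.isUnit_iff_isUnit_det] at h1
    exact h1.ne_zero
  · ext i j
    have hAP : (A * P) i j = ((N ^ ((j : ℕ) + 1)) x) i := by
      rw [pow_succ', Module.End.mul_apply]
      rfl
    rw [hAP, Matrix.mul_apply]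
    by_cases hj : (j : ℕ) + 1 < n
    · rw [Finset.sum_eq_single ⟨(j : ℕ) + 1, hj⟩]
      · rw [shift_apply, if_pos rfl, mul_one]; rfl
      · intro l _ hl
        rw [shift_apply, if_neg, mul_zero]
        intro h'
        exact hl (Fin.ext h')
      · intro h; exact absurd (Finset.mem_univ _) h
    · have h1 : (j : ℕ) + 1 = n := by omega
      rw [h1, hNn]
      symm
      apply Finset.sum_eq_zero
      intro l _
      rw [shift_apply, if_neg (by omega), mul_zero]

end Cfsg.Agent.H173.RegUni
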